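import Cfsg.Agent.KFacts.ChevTwoTab
import Cfsg.Agent.H225.PPow.ChevF
import Cfsg.Agent.ChevFast.E6
import Cfsg.Agent.ChevFast.E7
import Cfsg.Agent.ChevFast.E8
import Cfsg.Agent.ChevFast.F4
import Cfsg.Agent.Prune
set_option linter.all false
prune_inst 0x7f00000000000000000000000000000000000000000000000000000000000000000000000000000000000000000000000000000000000000000000000000000000000000000000000000000000000000003fffffffffffffffffffffffffffbeffbdffffffff

/-!
# S3509, exceptional groups: the long root rule (helper579), the tables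

`Tab D l j th`: the facts on the roots of level 1, 2 with respect to the fundamental root `j` (`th` the highest root),
checked for `G₂, D₄, F₄, E₆, E₇, E₈` by evaluation.
-/

set_option autoImplicit false

namespace Cfsg.Agent.H579.RG

open Cfsg.Lie Cfsg.Agent.ChevalleyStructure Cfsg.Agent.ChevalleyStructure.RootVecTab
  Cfsg.Agent.ChevalleyStructure.RootVec Cfsg.Agent.KFacts.ChevTwoTab

/-- roots of level 1 -/
def L1 (D : ChevalleyDatum) (j : ℕ) : List ℕ := (List.range D.nroots).filter fun r => rt D r j == 1

/-- the opposite pairs -/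
def opL (D : ChevalleyDatum) (j : ℕ) : List (ℕ × ℕ) := (L1 D j).zip (L1 D j).reverse

/-- the coefficient of a single term -/
def hcf : List (ℕ × ℤ × ℕ × ℕ) → ℤ
  | [(_, k, _, _)] => k
  | _ => 0

/-- the coefficient of a pair -/
def kf (D : ChevalleyDatum) (c : ℕ × ℕ) : ℤ := hcf (D.commTerms c.2 c.1)

/-- `±1` -/
def isU (k : ℤ) : Bool := k == 1 || k == -1

/-- `c.1 - d.1 = m α_i` -/
def dif (D : ChevalleyDatum) (l i : ℕ) (m : ℤ) (c d : ℕ × ℕ) : Bool :=
  (List.range l).all fun k => rt D c.1 k == rt D d.1 k + if k == i then m else 0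

/-- the tables -/
structure Tab (D : ChevalleyDatum) (l j th : ℕ) : Prop where
  jl : j < l
  th_lt : th < D.nroots
  lev : ((List.range l).all fun i => carB D th (D.simple i) == if i == j then 1 else 0) = true
  top : ((List.range D.nroots).all fun r => decide (rt D r j < 2) || r == th) = true
  lr : ((List.range D.nroots).all fun r => decide (rt D r j < 0) || r == th || D.commTerms th r == []) = true
  op : ((opL D j).all fun c => ((List.range l).all fun i => rt D c.1 i + rt D c.2 i == rt D th i) && c.1 != c.2 &&
    D.commTerms c.2 c.1 == [(th, kf D c, 1, 1)] &&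
    ((L1 D j).all fun s => s == c.1 || s == c.2 || D.commTerms s c.1 == [])) = true
  cov : ((L1 D j).all fun r => (opL D j).any fun c => c.1 == r) = true
  cov2 : ((opL D j).all fun c => decide (c.1 < D.nroots) && decide (c.2 < D.nroots)) = true
  move : ((List.range l).all fun i => i == j || (opL D j).any fun c => isU (kf D c) && D.cartan i c.1 != 0) = true
  torj : ((opL D j).any fun c => isU (kf D c) && c.1 == D.simple j) = true
  tor : ((List.range l).all fun i => i == j ||
    ((opL D j).any fun c => (opL D j).any fun d => dif D l i 1 c d && isU (kf D c) && isU (kf D d)) ||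
    ([2, 3].any fun m =>
      ((opL D j).any fun c => (opL D j).any fun d => dif D l i m c d && isU (kf D c) && isU (kf D d)) &&
      ((opL D j).any fun c => (opL D j).any fun d => dif D l i 1 c d && (isU (kf D c) || kf D c ^ 2 == m ^ 2) &&
        (isU (kf D d) || kf D d ^ 2 == m ^ 2)))) = true

set_option maxRecDepth 100000

theorem tab_D4 : Tab chevD4 4 1 23 where
  jl := by decide
  th_lt := by decide +kernel
  lev := by decide +kernel
  top := by decide +kernel
  lr := by decide +kernel
  op := by decide +kernel
  cov := by decide +kernel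
  cov2 := by decide +kernel
  move := by decide +kernel
  torj := by decide +kernel
  tor := by decide +kernel

theorem tab_F4 : Tab chevF4 4 3 47 where
  jl := by decide
  th_lt := by decide +kernel
  lev := by (delta Cfsg.Agent.KFacts.ChevTwoTab.carB; rewrite [Cfsg.Agent.ChevFast.F4.cartan, Cfsg.Agent.ChevFast.F4.coroot]; decide +kernel)
  top := by decide +kernel
  lr := by decide +kernel
  op := by decide +kernel
  cov := by decide +kernel
  cov2 := by decide +kernel
  move := by (delta Cfsg.Agent.H579.RG.kf; rewrite [Cfsg.Agent.ChevFast.F4.cartan]; decide +kernel)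
  torj := by decide +kernel
  tor := by decide +kernel

theorem tab_E6 : Tab chevE6 6 1 71 where
  jl := by decide
  th_lt := by decide +kernel
  lev := by (delta Cfsg.Agent.KFacts.ChevTwoTab.carB; rewrite [Cfsg.Agent.ChevFast.E6.cartan, Cfsg.Agent.ChevFast.E6.coroot]; decide +kernel)
  top := by decide +kernel
  lr := by (rewrite [Cfsg.Agent.ChevFast.E6.commTerms]; decide +kernel)
  op := by (delta Cfsg.Agent.H579.RG.kf; rewrite [Cfsg.Agent.ChevFast.E6.commTerms]; decide +kernel)
  cov := by decide +kernel
  cov2 := by decide +kernel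
  move := by (delta Cfsg.Agent.H579.RG.kf; rewrite [Cfsg.Agent.ChevFast.E6.cartan, Cfsg.Agent.ChevFast.E6.commTerms]; decide +kernel)
  torj := by (delta Cfsg.Agent.H579.RG.kf; rewrite [Cfsg.Agent.ChevFast.E6.commTerms]; decide +kernel)
  tor := by (delta Cfsg.Agent.H579.RG.kf; rewrite [Cfsg.Agent.ChevFast.E6.commTerms]; decide +kernel)

theorem tab_E7 : Tab chevE7 7 0 125 where
  jl := by decide
  th_lt := by decide +kernel
  lev := by (delta Cfsg.Agent.KFacts.ChevTwoTab.carB; rewrite [Cfsg.Agent.ChevFast.E7.cartan, Cfsg.Agent.ChevFast.E7.coroot]; decide +kernel)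
  top := by decide +kernel
  lr := by (rewrite [Cfsg.Agent.ChevFast.E7.commTerms]; decide +kernel)
  op := by (delta Cfsg.Agent.H579.RG.kf; rewrite [Cfsg.Agent.ChevFast.E7.commTerms]; decide +kernel)
  cov := by decide +kernel
  cov2 := by decide +kernel
  move := by (delta Cfsg.Agent.H579.RG.kf; rewrite [Cfsg.Agent.ChevFast.E7.cartan, Cfsg.Agent.ChevFast.E7.commTerms]; decide +kernel)
  torj := by (delta Cfsg.Agent.H579.RG.kf; rewrite [Cfsg.Agent.ChevFast.E7.commTerms]; decide +kernel)
  tor := by (delta Cfsg.Agent.H579.RG.kf; rewrite [Cfsg.Agent.ChevFast.E7.commTerms]; decide +kernel)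

theorem tab_E8 : Tab chevE8 8 7 239 where
  jl := by decide
  th_lt := by decide +kernel
  lev := by (delta Cfsg.Agent.KFacts.ChevTwoTab.carB; rewrite [Cfsg.Agent.ChevFast.E8.cartan, Cfsg.Agent.ChevFast.E8.coroot]; decide +kernel)
  top := by decide +kernel
  lr := by (rewrite [Cfsg.Agent.ChevFast.E8.commTerms]; decide +kernel)
  op := by (delta Cfsg.Agent.H579.RG.kf; rewrite [Cfsg.Agent.ChevFast.E8.commTerms]; decide +kernel)
  cov := by decide +kernel
  cov2 := by decide +kernel
  move := by (delta Cfsg.Agent.H579.RG.kf; rewrite [Cfsg.Agent.ChevFast.E8.cartan, Cfsg.Agent.ChevFast.E8.commTerms]; decide +kernel)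
  torj := by (delta Cfsg.Agent.H579.RG.kf; rewrite [Cfsg.Agent.ChevFast.E8.commTerms]; decide +kernel)
  tor := by (delta Cfsg.Agent.H579.RG.kf; rewrite [Cfsg.Agent.ChevFast.E8.commTerms]; decide +kernel)

end Cfsg.Agent.H579.RG
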